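import Cfsg.Statements.S3369
import Cfsg.Agent.E82.M44.Fin
import Cfsg.Agent.E82.Asm
import Cfsg.Agent.E82.Small
import Cfsg.Agent.E82.U4.Row
import Cfsg.Agent.E82.Mach.R6
import Cfsg.Agent.E82.Mach.M8
import Cfsg.Agent.E82.O8.Main

set_option autoImplicit false
open Cfsg

namespace Cfsg.Agent.S3369

/-- Let H be a subgroup of the Chevalley group E₈(2) (realised by its root elements in the 248-dimensional adjoint representation over the field with 2 elements) whose generalized Fitting subgroup F*(H) is isomorphic to one of U₄(2), Sp₆(2), Ω⁺₈(2), Sp₈(2) or Sp₄(4). Then H is not a maximal subgroup of E₈(2). -/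
theorem result
    (F₄ : Type*) [Field F₄] [Fintype F₄] (hF₄ : Fintype.card F₄ = 4)
    (H : Subgroup ↥(Cfsg.Lie.chevE8.group (ZMod 2)))
    (hH : Nonempty (Cfsg.generalizedFittingSubgroup H ≃* Cfsg.PSU 4 F₄ 2) ∨
      Nonempty (Cfsg.generalizedFittingSubgroup H ≃* Matrix.symplecticGroup (Fin 3) (ZMod 2)) ∨
      Nonempty (Cfsg.generalizedFittingSubgroup H ≃* Cfsg.Omega (ZMod 2) (Cfsg.quadFormPlus 4 (ZMod 2))) ∨
      Nonempty (Cfsg.generalizedFittingSubgroup H ≃* Matrix.symplecticGroup (Fin 4) (ZMod 2)) ∨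
      Nonempty (Cfsg.generalizedFittingSubgroup H ≃* Matrix.symplecticGroup (Fin 2) F₄)) :
    ¬ IsCoatom H := by
  exact Cfsg.Agent.E82.main Cfsg.Agent.E82.small (F := Cfsg.Agent.Lib.FieldFour.F4) (K := Cfsg.Agent.Lib.FieldFour.F4) rfl rfl
    Cfsg.Agent.E82.U4.rowU42 Cfsg.Agent.E82.Mach.C3.rowSp6 Cfsg.Agent.E82.rowO8 Cfsg.Agent.E82.Mach.C4.rowSp8
    Cfsg.Agent.E82.M44.rowSp44 F₄ hF₄ H hH

end Cfsg.Agent.S3369
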