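import Cfsg.Statements.S5772
import Cfsg.Agent.E8A.Asm.Main
import Cfsg.Agent.E8A.Odd.Asm
import Cfsg.Agent.E8A.Odd.Tha
import Cfsg.Agent.E8A.Odd.Pt2
import Cfsg.Agent.E8A.Odd.Pt3
import Cfsg.Agent.E8A.Two.Frame
import Cfsg.Agent.E8A.TwoB.TB
import Cfsg.Agent.E8A.TwoB.A4
import Cfsg.Agent.E8A.TwoB.Nil
import Cfsg.Agent.E8A.TwoH.TC
import Cfsg.Agent.E8A.TwoD.Main

set_option autoImplicit false
open Cfsg

namespace Cfsg.Agent.S5772

/-- Let F be a finite field and let G be the Chevalley group of type E₈ over F (generated by its root elements in the adjoint representation). If H is a maximal subgroup of G whose generalized Fitting subgroup is isomorphic to an alternating group of degree n ≥ 5, then n = 6 or n = 7. -/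
theorem result {F : Type*} [Field F] [Fintype F] (H : Subgroup ↥(Cfsg.Lie.chevE8.group F)) (hH : IsCoatom H)
    (n : ℕ) (hn : 5 ≤ n) (hA : Nonempty (↥(Cfsg.generalizedFittingSubgroup ↥H) ≃* ↥(alternatingGroup (Fin n)))) : n = 6 ∨ n = 7 := by
  open Cfsg.Agent.E8A in
  exact s5772_of (Odd.no14_of Odd.tha Odd.pt2 Odd.pt3) (Two.h2_of (TwoB.tb_of TwoB.a4x TwoB.nilf) TwoH.tca TwoD.td)
    (Odd.h3_of Odd.tha Odd.pt2 Odd.pt3) (Odd.h5_of Odd.tha Odd.pt2 Odd.pt3) H hH n hn hA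

end Cfsg.Agent.S5772
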