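import Cfsg.Statements.S5930
import Cfsg.Agent.E8A.Asm.Main
import Cfsg.Agent.E8A.C63.All
import Cfsg.Agent.E8A.C63.Nil
import Cfsg.Agent.E8A.C65.Main
import Cfsg.Agent.E8A.C72.Main

set_option autoImplicit false
open Cfsg

namespace Cfsg.Agent.S5930

/-- Let F be a finite field of characteristic p and let G be the Chevalley group of type E₈ over F (generated by its root elements in the adjoint representation; the simple group E₈(q)). Let H be a maximal subgroup of G whose generalized Fitting subgroup is isomorphic to an alternating group of degree n ≥ 5. If n = 6 then p = 2 or p ≥ 7; if n = 7 then p ≠ 2 (p is odd). -/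
theorem result
    {F : Type*} [Field F] [Fintype F] (p : ℕ) [Fact p.Prime] [CharP F p] (H : Subgroup ↥(Cfsg.Lie.chevE8.group F)) (hH : IsCoatom H)
    (n : ℕ) (hn : 5 ≤ n) (hA : Nonempty (↥(Cfsg.generalizedFittingSubgroup ↥H) ≃* ↥(alternatingGroup (Fin n)))) :
    (n = 6 → p = 2 ∨ 7 ≤ p) ∧ (n = 7 → p ≠ 2) := by
  open Cfsg.Agent.E8A in
  exact s5930_of (C63.c63_nil C63.nil3) C65.c65 C72.c72 p H hH n hn hA

end Cfsg.Agent.S5930
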